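import Cfsg.Agent.H72.ThompsonA

/-!
Thompson's replacement counting: if `A` is an abelian subgroup of largest order of `P` and `X` is an
abelian subgroup of `P` normalised by `A`, then for `x ∈ X` every element of the subgroup generated
by the `⁅a, x⁆` is a single `⁅a, x⁆` times an element fixed by `A`.
-/

set_option autoImplicit false

namespace Cfsg.Agent.H35.AbOrbit

open Subgroup
open scoped commutatorElement
open Cfsg.Agent.H72 (IsMaxAb)

variable {G : Type*} [Group G] [Finite G]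

theorem exists_comm_eq_of_isMaxAb {P A X : Subgroup G} (hA : IsMaxAb P A) (hXP : X ≤ P)
    (hXc : ∀ x ∈ X, ∀ y ∈ X, Commute x y) (hXn : ∀ a ∈ A, ∀ x ∈ X, a * x * a⁻¹ ∈ X)
    {x : G} (hx : x ∈ X) {m : G}
    (hm : m ∈ Subgroup.closure ((fun a => ⁅a, x⁆) '' (A : Set G))) :
    ∃ a ∈ A, ∃ f ∈ X, (∀ b ∈ A, Commute b f) ∧ m = ⁅a, x⁆ * f := by
  classical
  set M := Subgroup.closure ((fun a => ⁅a, x⁆) '' (A : Set G)) with hM
  have hgen : ∀ a ∈ A, ⁅a, x⁆ ∈ X := fun a ha => by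
    rw [commutatorElement_def]; exact X.mul_mem (hXn a ha x hx) (X.inv_mem hx)
  have hMX : M ≤ X := (closure_le _).2 (by rintro _ ⟨a, ha, rfl⟩; exact hgen a ha)
  set C := A ⊓ centralizer (M : Set G) with hC
  have hCM : ∀ c ∈ C, ∀ y ∈ M, Commute c y := fun c hc y hy =>
    (mem_centralizer_iff.1 hc.2 y hy).symm
  -- `D a (D b x) = D b (D a x)`
  have hswap : ∀ a ∈ A, ∀ b ∈ A, ⁅a, ⁅b, x⁆⁆ = ⁅b, ⁅a, x⁆⁆ := by
    intro a ha b hb
    have hab : Commute a b := hA.2.1 a ha b hb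
    have e1 : ⁅a, ⁅b, x⁆⁆ = (a * b * x * (a * b)⁻¹) * (a * x⁻¹ * a⁻¹) * (x * (b * x⁻¹ * b⁻¹)) := by
      simp only [commutatorElement_def]; group
    have e2 : ⁅b, ⁅a, x⁆⁆ = (b * a * x * (b * a)⁻¹) * (b * x⁻¹ * b⁻¹) * (x * (a * x⁻¹ * a⁻¹)) := by
      simp only [commutatorElement_def]; group
    have h1 := hXn a ha x⁻¹ (X.inv_mem hx)
    have h2 := hXn b hb x⁻¹ (X.inv_mem hx)
    rw [e1, e2, hab.eq]
    generalize b * a * x * (b * a)⁻¹ = k
    set u := a * x⁻¹ * a⁻¹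
    set w := b * x⁻¹ * b⁻¹
    rw [mul_assoc k, mul_assoc k]
    congr 1
    calc u * (x * w) = x * w * u := (hXc _ h1 _ (X.mul_mem hx h2)).eq
      _ = w * x * u := by rw [(hXc x hx w h2).eq]
      _ = w * (x * u) := mul_assoc _ _ _
  -- the product bound
  have hbound : Nat.card M * Nat.card C ≤ Nat.card A * Nat.card (M ⊓ A : Subgroup G) := by
    let φ : M × C →* G := MonoidHom.noncommCoprod M.subtype C.subtype
      (fun y c => (hCM c c.2 y y.2).symm)
    have hrange : ∀ a ∈ φ.range, ∀ b ∈ φ.range, Commute a b := by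
      rintro _ ⟨⟨y, c⟩, rfl⟩ _ ⟨⟨y', c'⟩, rfl⟩
      simp only [φ, coe_subtype]
      exact ((hXc _ (hMX y.2) _ (hMX y'.2)).mul_right (hCM c' c'.2 y y.2).symm).mul_left
        ((hCM c c.2 y' y'.2).mul_right (hA.2.1 _ c.2.1 _ c'.2.1))
    have hle : φ.range ≤ P := by
      rintro _ ⟨⟨y, c⟩, rfl⟩
      exact P.mul_mem (hXP (hMX y.2)) (hA.1 c.2.1)
    have h1 := hA.2.2 φ.range hle hrange
    have hker : Nat.card φ.ker ≤ Nat.card (M ⊓ A : Subgroup G) := by
      refine Nat.card_le_card_of_injective (fun z : φ.ker => (⟨(z.1.1 : G), z.1.1.2, by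
        have hz : (z.1.1 : G) * (z.1.2 : G) = 1 := z.2
        rw [eq_inv_of_mul_eq_one_left hz]
        exact A.inv_mem z.1.2.2.1⟩ : (M ⊓ A : Subgroup G))) fun z z' h => ?_
      have e : (z.1.1 : G) = z'.1.1 := congrArg (fun q : (M ⊓ A : Subgroup G) => (q : G)) h
      have hz : (z.1.1 : G) * (z.1.2 : G) = 1 := z.2
      have hz' : (z'.1.1 : G) * (z'.1.2 : G) = 1 := z'.2
      refine Subtype.ext (Prod.ext (Subtype.ext e) (Subtype.ext ?_))
      rw [eq_inv_of_mul_eq_one_right hz, eq_inv_of_mul_eq_one_right hz', e]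
    have h2 : Nat.card φ.range * Nat.card φ.ker = Nat.card M * Nat.card C := by
      rw [← Nat.card_prod (↥M) (↥C), Subgroup.card_eq_card_quotient_mul_card_subgroup φ.ker,
        Nat.card_congr (QuotientGroup.quotientKerEquivRange φ).toEquiv]
    calc Nat.card M * Nat.card C = Nat.card φ.range * Nat.card φ.ker := h2.symm
      _ ≤ _ := Nat.mul_le_mul h1 hker
  set CA := C.subgroupOf A with hCA
  set MA := (M ⊓ A).subgroupOf M with hMA
  have hcardle : Nat.card (M ⧸ MA) ≤ Nat.card (A ⧸ CA) := by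
    have e1 := Subgroup.card_eq_card_quotient_mul_card_subgroup MA
    have e2 := Subgroup.card_eq_card_quotient_mul_card_subgroup CA
    rw [hMA, Nat.card_congr (subgroupOfEquivOfLe (inf_le_left : M ⊓ A ≤ M)).toEquiv, ← hMA] at e1
    rw [hCA, Nat.card_congr (subgroupOfEquivOfLe (inf_le_left : C ≤ A)).toEquiv, ← hCA] at e2
    rw [e1, e2] at hbound
    have hpos : 0 < Nat.card (M ⊓ A : Subgroup G) * Nat.card C := Nat.mul_pos Nat.card_pos Nat.card_pos
    exact Nat.le_of_mul_le_mul_right (by linarith [hbound]) hpos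
  let F : A ⧸ CA → M ⧸ MA := fun c =>
    QuotientGroup.mk (⟨⁅((c.out : A) : G), x⁆, subset_closure ⟨_, c.out.2, rfl⟩⟩ : M)
  have hFinj : Function.Injective F := by
    intro c c' h
    have hf := QuotientGroup.eq.1 h
    rw [hMA, mem_subgroupOf] at hf
    set a : G := ((c.out : A) : G)
    set b : G := ((c'.out : A) : G)
    have ha : a ∈ A := c.out.2
    have hb : b ∈ A := c'.out.2
    have hf' : ⁅a, x⁆⁻¹ * ⁅b, x⁆ ∈ A := hf.2
    set f := ⁅a, x⁆⁻¹ * ⁅b, x⁆ with hf_def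
    set d := a⁻¹ * b with hd
    have hdA : d ∈ A := A.mul_mem (A.inv_mem ha) hb
    have hbd : b = a * d := by rw [hd, mul_inv_cancel_left]
    have hdx : ⁅d, x⁆ ∈ A := by
      have e : ⁅b, x⁆ = a * ⁅d, x⁆ * a⁻¹ * ⁅a, x⁆ := by
        rw [hbd]; simp only [commutatorElement_def]; group
      have h1 : a * ⁅d, x⁆ * a⁻¹ ∈ X := hXn a ha _ (hgen d hdA)
      have e2 : a * ⁅d, x⁆ * a⁻¹ = f := by
        rw [hf_def, e, (hXc _ h1 _ (hgen a ha)).eq, inv_mul_cancel_left]
      have e3 : ⁅d, x⁆ = a⁻¹ * f * a := by rw [← e2]; group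
      rw [e3]
      exact A.mul_mem (A.mul_mem (A.inv_mem ha) hf') ha
    have hdC : d ∈ C := by
      refine ⟨hdA, ?_⟩
      have hle : M ≤ centralizer ({d} : Set G) := (closure_le _).2 (by
        rintro _ ⟨e, he, rfl⟩
        refine mem_centralizer_singleton_iff.2 (commutatorElement_eq_one_iff_mul_comm.1 ?_).symm
        rw [hswap d hdA e he]
        exact commutatorElement_eq_one_iff_mul_comm.2 (hA.2.1 e he _ hdx).eq)
      exact mem_centralizer_iff.2 fun y hy => (mem_centralizer_singleton_iff.1 (hle hy))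
    exact (Quotient.out_eq' c).symm.trans
      ((QuotientGroup.eq.2 (show ((c.out : A)⁻¹ * c'.out) ∈ CA from hdC)).trans
        (Quotient.out_eq' c'))
  have hFsurj : Function.Surjective F :=
    (hFinj.bijective_of_nat_card_le hcardle).2
  obtain ⟨c, hc⟩ := hFsurj (QuotientGroup.mk (⟨m, hm⟩ : M))
  have hf := QuotientGroup.eq.1 hc
  rw [hMA, mem_subgroupOf] at hf
  refine ⟨_, c.out.2, _, hMX hf.1, fun b hb => hA.2.1 b hb _ hf.2, ?_⟩
  exact (mul_inv_cancel_left _ _).symm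

end Cfsg.Agent.H35.AbOrbit
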