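import Cfsg.Agent.H35.AbOrbit.Core
import Cfsg.Agent.H35.AbOrbit.Cover

/-!
For `p ≥ 5` an abelian subgroup of largest order of a `p`-subgroup commutes, modulo the kernel, with
every abelian `p'`-group of operators of a section `U₁ / T` (`T` central and centralised by those
operators, `U₁ / T` elementary abelian).
-/

set_option autoImplicit false

namespace Cfsg.Agent.H35.AbOrbit

open Subgroup
open scoped commutatorElement
open Cfsg.Agent.H72 (IsMaxAb)

variable {G : Type*} [Group G] [Finite G] {p : ℕ} [hp : Fact p.Prime]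

theorem commutator_mem_of_isMaxAb (hp5 : 5 ≤ p) {P A U₁ T : Subgroup G} [hU₁n : U₁.Normal]
    [hTn : T.Normal] (hA : IsMaxAb P A) (hAp : IsPGroup p A) (hU₁P : U₁ ≤ P) (hTU : T ≤ U₁)
    (hcT : ∀ u ∈ U₁, ∀ w ∈ U₁, ⁅u, w⁆ ∈ T) (hpow : ∀ u ∈ U₁, u ^ p ∈ T)
    (hTc : ∀ t ∈ T, ∀ u ∈ U₁, Commute t u) (L : Subgroup G) [hLn : L.Normal]
    (hLT : ∀ l ∈ L, ∀ t ∈ T, Commute l t)
    (hLab : ∀ l ∈ L, ∀ l' ∈ L, ∀ u ∈ U₁, ⁅⁅l, l'⁆, u⁆ ∈ T)
    {m : ℕ} (hm : m.Coprime p) (hLm : ∀ l ∈ L, ∀ u ∈ U₁, ⁅l ^ m, u⁆ ∈ T) :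
    ∀ a ∈ A, ∀ l ∈ L, ∀ u ∈ U₁, ⁅⁅a, l⁆, u⁆ ∈ T := by
  classical
  set T' := T.subgroupOf U₁ with hT'
  have hmk : ∀ u w : U₁, (QuotientGroup.mk u : U₁ ⧸ T') = QuotientGroup.mk w ↔
      (u : G)⁻¹ * w ∈ T := fun u w => QuotientGroup.eq
  letI : CommGroup (U₁ ⧸ T') :=
    { (inferInstance : Group (U₁ ⧸ T')) with
      mul_comm := fun x y => by
        induction x using QuotientGroup.induction_on with
        | H u =>
        induction y using QuotientGroup.induction_on with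
        | H w =>
        rw [← QuotientGroup.mk_mul, ← QuotientGroup.mk_mul, hmk]
        have h := hcT _ (U₁.inv_mem w.2) _ (U₁.inv_mem u.2)
        rw [commutatorElement_def] at h
        simpa [mul_assoc] using h }
  let W := Additive (U₁ ⧸ T')
  let mkW : U₁ → W := fun u => Additive.ofMul (QuotientGroup.mk u)
  have hW : ∀ w : W, ∃ u, mkW u = w := fun w => QuotientGroup.mk_surjective w.toMul
  have hTle : ∀ g : G, T' ≤ T'.comap (MulAut.conjNormal g : MulAut U₁).toMonoidHom := fun g t ht => by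
    rw [hT', mem_comap, mem_subgroupOf]
    show ((MulAut.conjNormal g t : U₁) : G) ∈ T
    rw [MulAut.conjNormal_apply]
    exact hTn.conj_mem _ ht g
  let ρ : G →* AddMonoid.End W :=
    { toFun := fun g => MonoidHom.toAdditive
        (QuotientGroup.map T' T' (MulAut.conjNormal g : MulAut U₁).toMonoidHom (hTle g))
      map_one' := AddMonoidHom.ext fun w => by
        obtain ⟨u, rfl⟩ := hW w
        show Additive.ofMul (QuotientGroup.mk ((MulAut.conjNormal (1 : G)) u)) = mkW u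
        rw [map_one]; rfl
      map_mul' := fun g h => AddMonoidHom.ext fun w => by
        obtain ⟨u, rfl⟩ := hW w
        show Additive.ofMul (QuotientGroup.mk ((MulAut.conjNormal (g * h)) u)) =
          Additive.ofMul (QuotientGroup.mk (MulAut.conjNormal g ((MulAut.conjNormal h) u)))
        rw [map_mul]; rfl }
  have hρ : ∀ g u, ρ g (mkW u) = mkW (MulAut.conjNormal g u) := fun g u => rfl
  have hρ1 : ∀ g, ρ g = 1 ↔ ∀ u ∈ U₁, ⁅g, u⁆ ∈ T := by
    intro g
    constructor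
    · intro h u hu
      have h1 : mkW (MulAut.conjNormal g ⟨u, hu⟩) = mkW ⟨u, hu⟩ := by rw [← hρ, h]; rfl
      have h2 := (hmk _ _).1 (congrArg Additive.toMul h1).symm
      rw [MulAut.conjNormal_apply] at h2
      have h3 := hTn.conj_mem _ h2 u
      simpa [commutatorElement_def, mul_assoc] using h3
    · intro h
      refine AddMonoidHom.ext fun w => ?_
      obtain ⟨u, rfl⟩ := hW w
      refine (hρ g u).trans ?_
      show mkW (MulAut.conjNormal g u) = mkW u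
      refine congrArg Additive.ofMul (Eq.symm ((hmk _ _).2 ?_))
      rw [MulAut.conjNormal_apply]
      have h3 := hTn.conj_mem _ (h u u.2) (u : G)⁻¹
      simpa [commutatorElement_def, mul_assoc] using h3
  have hρcomm : ∀ g h, ρ ⁅g, h⁆ = 1 → ρ g * ρ h = ρ h * ρ g := fun g h e => by
    rw [← map_mul, show g * h = ⁅g, h⁆ * (h * g) by rw [commutatorElement_def]; group, map_mul, e,
      one_mul, map_mul]
  -- the pairing
  letI : CommGroup T :=
    { (inferInstance : Group T) with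
      mul_comm := fun x y => Subtype.ext (hTc x x.2 y (hTU y.2)).eq }
  let rep : W → U₁ := fun w => w.toMul.out
  have hrep : ∀ w, mkW (rep w) = w := fun w => QuotientGroup.out_eq' w.toMul
  let β : W → W → T := fun x y => ⟨⁅(rep x : G), (rep y : G)⁆, hcT _ (rep x).2 _ (rep y).2⟩
  have hmul : ∀ a b c : G, a ∈ U₁ → b ∈ U₁ → c ∈ U₁ → ⁅a * b, c⁆ = ⁅a, c⁆ * ⁅b, c⁆ := by
    intro a b c ha hb hc
    have h1 : ⁅a * b, c⁆ = a * ⁅b, c⁆ * a⁻¹ * ⁅a, c⁆ := by simp only [commutatorElement_def]; group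
    rw [h1, ← (hTc _ (hcT b hb c hc) a ha).eq, mul_inv_cancel_right,
      (hTc _ (hcT b hb c hc) _ (hTU (hcT a ha c hc))).eq]
  have hleft : ∀ u w v : U₁, mkW u = mkW w → ⁅(u : G), (v : G)⁆ = ⁅(w : G), (v : G)⁆ := by
    intro u w v h
    have ht := (hmk _ _).1 (congrArg Additive.toMul h)
    rw [← mul_inv_cancel_left (u : G) (w : G), hmul _ _ _ u.2 (hTU ht) v.2,
      commutatorElement_eq_one_iff_mul_comm.2 (hTc _ ht v v.2).eq, mul_one]
  have hβ : ∀ u w : U₁, (β (mkW u) (mkW w) : G) = ⁅(u : G), (w : G)⁆ := by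
    intro u w
    show ⁅(rep (mkW u) : G), (rep (mkW w) : G)⁆ = _
    rw [hleft _ u _ (hrep _), ← commutatorElement_inv (rep (mkW w) : G), hleft _ w _ (hrep _),
      commutatorElement_inv]
  -- the data for the core lemma
  let σ : A →* AddMonoid.End W := ρ.comp A.subtype
  let τ : L →* AddMonoid.End W := ρ.comp L.subtype
  let cc : A → L → L := fun a l => ⟨a * l * (a : G)⁻¹, hLn.conj_mem l l.2 a⟩
  have key := commute_of_orbit_property (W := W) hp5 ?_ hAp
    (fun a b => Subtype.ext (hA.2.1 a a.2 b b.2).eq) σ τ ?_ (m := m) hm ?_ cc ?_ β ?_ ?_ ?_ ?_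
  · intro a ha l hl
    refine (hρ1 _).1 ?_
    have h := key ⟨a, ha⟩ ⟨l, hl⟩
    change ρ a * ρ l = ρ l * ρ a at h
    rw [commutatorElement_def, map_mul, map_mul, map_mul, h, mul_assoc (ρ l), ← map_mul,
      mul_inv_cancel, map_one, mul_one, ← map_mul, mul_inv_cancel, map_one]
  · intro w
    obtain ⟨u, rfl⟩ := hW w
    show Additive.ofMul ((QuotientGroup.mk u : U₁ ⧸ T') ^ p) = Additive.ofMul 1
    rw [← QuotientGroup.mk_pow, (QuotientGroup.eq_one_iff _).2 (show u ^ p ∈ T' by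
      rw [hT', mem_subgroupOf, SubmonoidClass.coe_pow]; exact hpow u u.2)]
  · exact fun l l' => hρcomm _ _ ((hρ1 _).2 (hLab l l.2 l' l'.2))
  · intro l
    show ρ (l : G) ^ m = 1
    rw [← map_pow]; exact (hρ1 _).2 (hLm l l.2)
  · intro a l
    show ρ (a : G) * ρ (l : G) = ρ ((a : G) * l * (a : G)⁻¹) * ρ (a : G)
    rw [← map_mul, ← map_mul, inv_mul_cancel_right]
  · intro x x' y
    obtain ⟨u, rfl⟩ := hW x; obtain ⟨u', rfl⟩ := hW x'; obtain ⟨w, rfl⟩ := hW y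
    apply Subtype.ext
    rw [show mkW u + mkW u' = mkW (u * u') from rfl, Subgroup.coe_mul, hβ, hβ, hβ, Subgroup.coe_mul]
    exact hmul _ _ _ u.2 u'.2 w.2
  · intro x y
    apply Subtype.ext
    rw [Subgroup.coe_inv]
    exact (commutatorElement_inv _ _).symm
  · intro l x y
    obtain ⟨u, rfl⟩ := hW x; obtain ⟨w, rfl⟩ := hW y
    apply Subtype.ext
    show (β (ρ (l : G) (mkW u)) (ρ (l : G) (mkW w)) : G) = _
    rw [hρ, hρ, hβ, hβ, MulAut.conjNormal_apply, MulAut.conjNormal_apply,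
      ← MulAut.conj_apply, ← MulAut.conj_apply, ← map_commutatorElement, MulAut.conj_apply,
      (hLT l l.2 _ (hcT _ u.2 _ w.2)).eq, mul_inv_cancel_right]
  · intro X hXiso hXinv x hx w hw
    obtain ⟨u, rfl⟩ := hW x
    let X' : Subgroup G :=
      ((AddSubgroup.toSubgroup' X).comap (QuotientGroup.mk' T')).map U₁.subtype
    have hX' : ∀ g, g ∈ X' ↔ ∃ h : g ∈ U₁, mkW ⟨g, h⟩ ∈ X := by
      intro g
      constructor
      · rintro ⟨v, hv, rfl⟩; exact ⟨v.2, hv⟩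
      · rintro ⟨h, hv⟩; exact ⟨⟨g, h⟩, hv, rfl⟩
    have hX'U : X' ≤ U₁ := map_subtype_le _
    have hc : ∀ g ∈ X', ∀ h ∈ X', Commute g h := by
      intro g hg h hh
      obtain ⟨hg1, hg⟩ := (hX' g).1 hg
      obtain ⟨hh1, hh⟩ := (hX' h).1 hh
      refine commutatorElement_eq_one_iff_mul_comm.1 ?_
      rw [← hβ ⟨g, hg1⟩ ⟨h, hh1⟩, hXiso _ hg _ hh]; rfl
    have hn : ∀ a ∈ A, ∀ g ∈ X', a * g * a⁻¹ ∈ X' := by
      intro a ha g hg
      obtain ⟨hg1, hg⟩ := (hX' g).1 hg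
      refine (hX' _).2 ⟨hU₁n.conj_mem g hg1 a, ?_⟩
      have h := hXinv ⟨a, ha⟩ _ hg
      change ρ a (mkW ⟨g, hg1⟩) ∈ X at h
      rw [hρ] at h
      have he : (⟨a * g * a⁻¹, hU₁n.conj_mem g hg1 a⟩ : U₁) = MulAut.conjNormal a ⟨g, hg1⟩ :=
        Subtype.ext (MulAut.conjNormal_apply a ⟨g, hg1⟩).symm
      rw [he]; exact h
    have hu : (u : G) ∈ X' := (hX' _).2 ⟨u.2, hx⟩
    -- lift `w`
    set M := Subgroup.closure ((fun a => ⁅a, (u : G)⁆) '' (A : Set G))
    have hMU : M ≤ U₁ := (closure_le _).2 (by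
      rintro _ ⟨a, ha, rfl⟩
      show ⁅a, (u : G)⁆ ∈ U₁
      rw [commutatorElement_def]; exact U₁.mul_mem (hU₁n.conj_mem _ u.2 a) (U₁.inv_mem u.2))
    have hdiff : ∀ a : A, σ a (mkW u) - mkW u =
        mkW ⟨⁅(a : G), (u : G)⁆, hMU (subset_closure ⟨a, a.2, rfl⟩)⟩ := by
      intro a
      have he : (⟨⁅(a : G), (u : G)⁆, hMU (subset_closure ⟨a, a.2, rfl⟩)⟩ : U₁) =
          MulAut.conjNormal (a : G) u * u⁻¹ := Subtype.ext (by
        rw [Subgroup.coe_mul, MulAut.conjNormal_apply, Subgroup.coe_inv]; rfl)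
      rw [he, sub_eq_add_neg]
      rfl
    obtain ⟨v, hv, hvw⟩ : ∃ v : U₁, (v : G) ∈ M ∧ mkW v = w := by
      induction hw using AddSubgroup.closure_induction with
      | mem y hy =>
        obtain ⟨a, rfl⟩ := hy
        exact ⟨_, subset_closure ⟨a, a.2, rfl⟩, (hdiff a).symm⟩
      | zero => exact ⟨1, M.one_mem, rfl⟩
      | add y z _ _ ihy ihz =>
        obtain ⟨v, hv, rfl⟩ := ihy
        obtain ⟨v', hv', rfl⟩ := ihz
        exact ⟨v * v', M.mul_mem hv hv', rfl⟩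
      | neg y _ ih =>
        obtain ⟨v, hv, rfl⟩ := ih
        exact ⟨v⁻¹, M.inv_mem hv, rfl⟩
    obtain ⟨a, ha, f, hf, hfA, he⟩ :=
      exists_comm_eq_of_isMaxAb hA (hX'U.trans hU₁P) hc hn hu hv
    refine ⟨⟨a, ha⟩, mkW ⟨f, hX'U hf⟩, fun b => ?_, ?_⟩
    · show ρ (b : G) (mkW ⟨f, hX'U hf⟩) = _
      rw [hρ]
      congr 1
      exact Subtype.ext (by rw [MulAut.conjNormal_apply, (hfA b b.2).eq, mul_inv_cancel_right])
    · rw [← hvw, hdiff]
      have he' : v = (⟨⁅a, (u : G)⁆, hMU (subset_closure ⟨a, ha, rfl⟩)⟩ : U₁) * ⟨f, hX'U hf⟩ :=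
        Subtype.ext he
      rw [he']; rfl

end Cfsg.Agent.H35.AbOrbit
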