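import Cfsg.Agent.H35.AbOrbit.Criterion

/-!
`N(J)/C(J)` a `p`-group is the same as `N(J)` having a normal `p`-complement, for the abelian
Thompson subgroup `J` of a Sylow `p`-subgroup.
-/

set_option autoImplicit false

namespace Cfsg.Agent.H35.AbOrbit

open Subgroup
open scoped commutatorElement
open Cfsg.Agent.H72 (IsMaxAb exists_isMaxAb thompsonSubgroupAOf_le
  le_normalizer_thompsonSubgroupAOf)

variable {G : Type*} [Group G] [Finite G] {p : ℕ} [Fact p.Prime]

theorem hasNormalPComplement_normalizer_thompsonA (S : Sylow p G)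
    (h : ∀ g ∈ normalizer (thompsonSubgroupAOf (S : Subgroup G) : Set G), (orderOf g).Coprime p →
      g ∈ centralizer (thompsonSubgroupAOf (S : Subgroup G) : Set G)) :
    HasNormalPComplement p (normalizer (thompsonSubgroupAOf (S : Subgroup G) : Set G)) := by
  set J := thompsonSubgroupAOf (S : Subgroup G)
  set M := normalizer (J : Set G) with hM
  set R := pResidual p M with hR
  have hRn : R.Normal := H22.pResidual_normal
  have hRJ : ∀ r ∈ R, (r : G) ∈ centralizer (J : Set G) := by
    intro r hr
    induction hr using closure_induction with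
    | mem x hx => exact h x x.2 (by rw [Subgroup.orderOf_coe]; exact hx)
    | one => exact (centralizer (J : Set G)).one_mem
    | mul x y _ _ hx hy => exact (centralizer (J : Set G)).mul_mem hx hy
    | inv x _ hx => exact (centralizer (J : Set G)).inv_mem hx
  obtain ⟨Q⟩ := (inferInstance : Nonempty (Sylow p R))
  have hQJ : ∀ x ∈ (Q : Subgroup R), ((x : M) : G) ∈ J := by
    intro x hx
    obtain ⟨T, hT⟩ := (Q.2.map R.subtype).exists_le_sylow
    have hSM : (S : Subgroup G) ≤ M := le_normalizer_thompsonSubgroupAOf _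
    obtain ⟨g, hg⟩ := MulAction.exists_smul_eq M T (S.subtype hSM)
    have h1 : g * x * g⁻¹ ∈ ((S.subtype hSM : Sylow p M) : Subgroup M) := by
      rw [← hg]
      exact ⟨(x : M), hT (mem_map_of_mem _ hx), rfl⟩
    have h2 : ((g * x * g⁻¹ : M) : G) ∈ (S : Subgroup G) := h1
    set y : G := ((g * x * g⁻¹ : M) : G) with hy
    have h3 : y ∈ centralizer (J : Set G) := hRJ _ (hRn.conj_mem _ x.2 g)
    obtain ⟨A, hA⟩ := exists_isMaxAb (S : Subgroup G)
    have h4 : y ∈ J := by
      have hc : ∀ a ∈ A, Commute a y := fun a ha =>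
        mem_centralizer_iff.1 h3 a (hA.le_thompson ha)
      let B := Subgroup.closure ((A : Set G) ∪ {y})
      have hBS : B ≤ (S : Subgroup G) :=
        (closure_le _).2 (Set.union_subset hA.1 (Set.singleton_subset_iff.2 h2))
      have hBc : ∀ a ∈ B, ∀ b ∈ B, Commute a b := by
        have hgen : ∀ a ∈ (A : Set G) ∪ {y}, ∀ b ∈ (A : Set G) ∪ {y}, a * b = b * a := by
          rintro a (ha | ha) b (hb | hb)
          · exact hA.2.1 a ha b hb
          · rw [Set.mem_singleton_iff.1 hb]; exact (hc a ha).eq
          · rw [Set.mem_singleton_iff.1 ha]; exact (hc b hb).symm.eq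
          · rw [Set.mem_singleton_iff.1 ha, Set.mem_singleton_iff.1 hb]
        have hle : B ≤ centralizer (B : Set G) := by
          have h5 : B ≤ centralizer ((A : Set G) ∪ {y}) :=
            (closure_le _).2 fun a ha => mem_centralizer_iff.2 fun b hb => hgen b hb a ha
          exact (closure_le _).2 fun a ha => mem_centralizer_iff.2 fun b hb =>
            (mem_centralizer_iff.1 (h5 hb) a ha).symm
        exact fun a ha b hb => (mem_centralizer_iff.1 (hle ha) b hb).symm
      have hAB : A ≤ B := fun a ha => subset_closure (Or.inl ha)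
      have he : A = B := eq_of_le_of_card_ge hAB (hA.2.2 B hBS hBc)
      have hyB : y ∈ B := subset_closure (Or.inr rfl)
      exact hA.le_thompson (he ▸ hyB)
    have h5 := (mem_normalizer_iff.1 (M.inv_mem g.2) y).1 h4
    have e : (g : G)⁻¹ * y * (g : G)⁻¹⁻¹ = ((x : M) : G) := by
      rw [hy, Subgroup.coe_mul, Subgroup.coe_mul, Subgroup.coe_inv]; group
    exact e ▸ h5
  have hnorm : normalizer ((Q : Subgroup R) : Set R) ≤ centralizer ((Q : Subgroup R) : Set R) :=
    fun r _ => mem_centralizer_iff.2 fun q hq => Subtype.ext (Subtype.ext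
      (mem_centralizer_iff.1 (hRJ r r.2) _ (hQJ q hq)))
  have hnpc : HasNormalPComplement p R :=
    ⟨Q, _, inferInstance, MonoidHom.ker_transferSylow_isComplement' Q hnorm⟩
  refine H22.hasNormalPComplement_iff.2 fun hd => H22.hasNormalPComplement_iff.1 hnpc (hd.trans ?_)
  have hle : R ≤ (pResidual p R).map R.subtype := by
    conv_lhs => rw [hR, pResidual]
    refine (closure_le _).2 fun x hx => ?_
    have hxR : x ∈ R := subset_closure hx
    refine ⟨⟨x, hxR⟩, subset_closure ?_, rfl⟩
    show (orderOf (⟨x, hxR⟩ : R)).Coprime p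
    rw [Subgroup.orderOf_mk]
    exact hx
  exact (card_dvd_of_le hle).trans (dvd_of_eq (card_map_of_injective R.subtype_injective))

theorem mem_centralizer_of_hasNormalPComplement (hnpc : HasNormalPComplement p G) {J : Subgroup G}
    (hJ : IsPGroup p J) {g : G} (hg : g ∈ normalizer (J : Set G)) (hgp : (orderOf g).Coprime p) :
    g ∈ centralizer (J : Set G) := by
  have hRn : (pResidual p G).Normal := H22.pResidual_normal
  have hgR : g ∈ pResidual p G := subset_closure hgp
  refine mem_centralizer_iff.2 fun j hj => ?_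
  have h1 : ⁅g, j⁆ ∈ J ⊓ pResidual p G := by
    refine ⟨?_, ?_⟩
    · rw [commutatorElement_def]
      exact J.mul_mem ((mem_normalizer_iff.1 hg j).1 hj) (J.inv_mem hj)
    · rw [show ⁅g, j⁆ = g * (j * g⁻¹ * j⁻¹) by rw [commutatorElement_def]; group]
      exact mul_mem hgR (hRn.conj_mem _ (inv_mem hgR) j)
  rw [H22.isPGroup_inf_eq_bot hJ _ (H22.hasNormalPComplement_iff.1 hnpc), mem_bot] at h1
  exact (commutatorElement_eq_one_iff_mul_comm.1 h1).symm

end Cfsg.Agent.H35.AbOrbit
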