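import Cfsg.Agent.H35.AbOrbit.Action
import Cfsg.Agent.H23.MinimalNPC
import Cfsg.Agent.H72.ThompsonA

/-!
For `p ≥ 5` a finite group has a normal `p`-complement as soon as the normaliser of the abelian
Thompson subgroup `J(P)` of a Sylow `p`-subgroup has one.
-/

set_option autoImplicit false

namespace Cfsg.Agent.H35.AbOrbit

open Subgroup H23
open scoped commutatorElement
open Cfsg.Agent.H72 (IsMaxAb thompsonSubgroupAOf_le thompsonSubgroupAOf_ne_bot
  map_thompsonSubgroupAOf normalizer_le_normalizer_thompsonSubgroupAOf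
  le_normalizer_thompsonSubgroupAOf mem_normalizer_thompsonSubgroupAOf)

universe u

variable {G : Type u} [Group G] [Finite G] {p : ℕ} [hp : Fact p.Prime]

/-- In the minimal configuration every abelian subgroup of largest order lies in `U`. -/
theorem isMaxAb_le_of_minimalNPC (hp5 : 5 ≤ p) (P : Sylow p G) (U : Subgroup G) [hUn : U.Normal]
    (hmin : MinimalNPC p P U) {A : Subgroup G} (hA : IsMaxAb (P : Subgroup G) A) : A ≤ U := by
  classical
  obtain ⟨hUp, hUP, -, hcent, hKp, hKcomm, hTQ, hdich⟩ := hmin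
  intro a ha
  rw [← QuotientGroup.eq_one_iff]
  refine hTQ _ (mem_map_of_mem _ (hA.1 ha)) fun d hd => ?_
  set φ := QuotientGroup.mk' U with hφ
  set R₀ := pResidual p G with hR₀
  have hRn : R₀.Normal := H22.pResidual_normal
  -- `φ R₀` is the normal `p`-complement
  have hmap : R₀.map φ ≤ pResidual p (G ⧸ U) := by
    rw [hR₀, pResidual, MonoidHom.map_closure, closure_le]
    rintro _ ⟨g, hg, rfl⟩
    exact subset_closure (hg.coprime_dvd_left (orderOf_map_dvd φ g))
  have hmap' : pResidual p (G ⧸ U) ≤ R₀.map φ := by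
    rw [pResidual, closure_le]
    intro x hx
    obtain ⟨g, rfl⟩ := QuotientGroup.mk'_surjective U x
    set e := (orderOf g).factorization p
    have hmem : g ^ p ^ e ∈ R₀ := subset_closure (by
      show (orderOf (g ^ p ^ e)).Coprime p
      rw [orderOf_pow, Nat.gcd_eq_right (Nat.ordProj_dvd _ _)]
      exact (Nat.coprime_ordCompl hp.out (orderOf_pos g).ne').symm)
    obtain ⟨j, hj⟩ := exists_pow_eq_self_of_coprime (x := φ g) (n := p ^ e)
      ((Nat.Coprime.symm hx).pow_left e)
    rw [SetLike.mem_coe, ← hj, ← map_pow, ← map_pow]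
    exact mem_map_of_mem φ (pow_mem hmem j)
  obtain ⟨l, hl, rfl⟩ := hmap' hd
  by_contra hncomm
  -- `R₀` does not centralise `U`
  have hRU : ¬ U ≤ centralizer (R₀ : Set G) := by
    intro h
    refine hncomm ?_
    have h1 : l ∈ U := hcent (mem_centralizer_iff.2 fun v hv =>
      (mem_centralizer_iff.1 (h hv) l hl).symm)
    rw [show φ l = 1 from (QuotientGroup.eq_one_iff l).2 h1]
    exact Commute.one_right _
  obtain ⟨U₁, ⟨hU₁n, hU₁U, hU₁R⟩, hmin₁⟩ := Set.Finite.exists_minimalFor
    (fun X : Subgroup G => X) {X : Subgroup G | X.Normal ∧ X ≤ U ∧ ¬ X ≤ centralizer (R₀ : Set G)}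
    (Set.toFinite _) ⟨U, hUn, le_rfl, hRU⟩
  set T := U₁ ⊓ centralizer (R₀ : Set G) with hT
  have hCRn : (centralizer (R₀ : Set G)).Normal := Subgroup.normal_centralizer
  have hTn : T.Normal := Subgroup.normal_inf_normal _ _
  have hTne : ¬ U₁ ≤ T := fun h => hU₁R (h.trans inf_le_right)
  have hprop : ∀ X : Subgroup G, X.Normal → X ≤ U₁ → ¬ U₁ ≤ X → X ≤ T := fun X hXn hXU hX =>
    le_inf hXU (by
      by_contra h
      exact hX (hmin₁ ⟨hXn, hXU.trans hU₁U, h⟩ hXU))
  -- `[U₁, U] ≤ T`
  have hU₁U' : ⁅U₁, U⁆ ≤ T := by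
    refine hprop _ (commutator_normal _ _) (commutator_le_left _ _) fun h => hTne ?_
    have hnil : Group.IsNilpotent U := hUp.isNilpotent
    obtain ⟨n, hn⟩ := (Subgroup.isNilpotent_iff_lowerCentralSeries U).1 hnil
    have hall : ∀ k, U₁ ≤ U.lowerCentralSeries k := by
      intro k
      induction k with
      | zero => exact hU₁U
      | succ k ih =>
        rw [Subgroup.lowerCentralSeries_succ]
        exact h.trans (commutator_mono ih le_rfl)
    have := hall n
    rw [hn, le_bot_iff] at this
    rw [this]; exact bot_le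
  have hcT : ∀ u ∈ U₁, ∀ w ∈ U₁, ⁅u, w⁆ ∈ T := fun u hu w hw =>
    hU₁U' (commutator_mem_commutator hu (hU₁U hw))
  -- coprime action
  have hcop : ¬ ∀ r ∈ R₀, ∀ u ∈ U₁, ⁅r, u⁆ ∈ T := by
    intro h
    refine hU₁R fun u hu => ?_
    suffices hle : R₀ ≤ centralizer ({u} : Set G) from mem_centralizer_iff.2 fun r hr =>
      (mem_centralizer_singleton_iff.1 (hle hr))
    rw [hR₀, pResidual, closure_le]
    intro r hr
    have hrR : r ∈ R₀ := subset_closure hr
    set c := ⁅r, u⁆ with hc
    have hcT' : c ∈ T := h r hrR u hu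
    have hrc : Commute r c := mem_centralizer_iff.1 hcT'.2 r hrR
    have hpow : ∀ n : ℕ, r ^ n * u = c ^ n * (u * r ^ n) := by
      intro n
      induction n with
      | zero => simp
      | succ n ih =>
        have hru : r * u = c * (u * r) := by rw [hc, commutatorElement_def]; group
        calc r ^ (n + 1) * u = r * (r ^ n * u) := by rw [pow_succ', mul_assoc]
          _ = r * (c ^ n * (u * r ^ n)) := by rw [ih]
          _ = c ^ n * (r * u) * r ^ n := by
            rw [← mul_assoc, (hrc.pow_right n).eq]; simp only [mul_assoc]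
          _ = c ^ (n + 1) * (u * r ^ (n + 1)) := by
            rw [hru, pow_succ, pow_succ']; simp only [mul_assoc]
    have h1 := hpow (orderOf r)
    rw [pow_orderOf_eq_one, one_mul, mul_one] at h1
    have h2 : c ^ orderOf r = 1 := mul_eq_right.1 h1.symm
    obtain ⟨k, hk⟩ := (hUp.to_le hU₁U).exists_card_eq
    have h3 : orderOf c ∣ p ^ k := by
      rw [← hk]; exact Subgroup.orderOf_dvd_natCard _ hcT'.1
    have h4 : orderOf c = 1 := Nat.eq_one_of_dvd_coprimes
      (Nat.Coprime.pow_right k hr) (orderOf_dvd_of_pow_eq_one h2) h3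
    exact mem_centralizer_singleton_iff.2
      (commutatorElement_eq_one_iff_mul_comm.1 (orderOf_eq_one_iff.1 h4))
  -- `T` is central in `U₁`
  have hTc : ∀ t ∈ T, ∀ u ∈ U₁, Commute t u := by
    set X := U₁ ⊓ centralizer (T : Set G)
    have hXn : X.Normal := by
      have : (centralizer (T : Set G)).Normal := Subgroup.normal_centralizer
      exact Subgroup.normal_inf_normal _ _
    rcases em (U₁ ≤ X) with h | h
    · exact fun t ht u hu => mem_centralizer_iff.1 (h hu).2 t ht
    exfalso
    refine hcop fun r hr u hu => ?_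
    refine hprop X hXn inf_le_left h ⟨?_, ?_⟩
    · rw [commutatorElement_def]
      exact U₁.mul_mem (hU₁n.conj_mem u hu r) (U₁.inv_mem hu)
    have h1 : ⁅R₀, T⁆ = ⊥ := by
      rw [commutator_eq_bot_iff_le_centralizer]
      exact fun x hx => mem_centralizer_iff.2 fun t ht => (mem_centralizer_iff.1 ht.2 x hx).symm
    have h2 : ⁅⁅T, U₁⁆, R₀⁆ = ⊥ := by
      rw [commutator_eq_bot_iff_le_centralizer]
      exact ((commutator_le_left T U₁).trans inf_le_right)
    have h3 := commutator_commutator_eq_bot_of_rotate (H₁ := U₁) (H₂ := R₀) (H₃ := T)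
      (by rw [h1, commutator_bot_left]) h2
    rw [commutator_eq_bot_iff_le_centralizer] at h3
    exact h3 (commutator_comm_le R₀ U₁ (commutator_mem_commutator hr hu))
  -- exponent `p` modulo `T`
  have hpow : ∀ u ∈ U₁, u ^ p ∈ T := by
    set T' := T.subgroupOf U₁ with hT'
    letI : CommGroup (U₁ ⧸ T') :=
      { (inferInstance : Group (U₁ ⧸ T')) with
        mul_comm := fun x y => by
          induction x using QuotientGroup.induction_on with
          | H u =>
          induction y using QuotientGroup.induction_on with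
          | H w =>
          rw [← QuotientGroup.mk_mul, ← QuotientGroup.mk_mul]
          refine QuotientGroup.eq.2 ?_
          rw [hT', mem_subgroupOf]
          have h := hcT _ (U₁.inv_mem w.2) _ (U₁.inv_mem u.2)
          rw [commutatorElement_def] at h
          simpa [mul_assoc] using h }
    set N := ((powMonoidHom p : U₁ ⧸ T' →* U₁ ⧸ T').range.comap (QuotientGroup.mk' T')).map
      U₁.subtype with hN
    have hNn : N.Normal := ⟨by
      rintro _ ⟨v, ⟨x, hx⟩, rfl⟩ g
      obtain ⟨w, rfl⟩ := QuotientGroup.mk'_surjective T' x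
      refine ⟨MulAut.conjNormal g v, ⟨QuotientGroup.mk' T' (MulAut.conjNormal g w), ?_⟩,
        MulAut.conjNormal_apply g v⟩
      rw [powMonoidHom_apply, ← map_pow] at hx ⊢
      rw [← map_pow]
      refine QuotientGroup.eq.2 ?_
      have h := QuotientGroup.eq.1 hx
      rw [hT', mem_subgroupOf] at h ⊢
      rw [← map_inv, ← map_mul, MulAut.conjNormal_apply]
      exact hTn.conj_mem _ h g⟩
    intro u hu
    refine hprop N hNn (map_subtype_le _) (fun hle => hTne fun v hv => ?_)
      ⟨⟨u ^ p, pow_mem hu p⟩, ⟨QuotientGroup.mk' T' ⟨u, hu⟩, by rw [powMonoidHom_apply, ← map_pow]; rfl⟩,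
        rfl⟩
    have hsurj : Function.Surjective (powMonoidHom p : U₁ ⧸ T' →* U₁ ⧸ T') := by
      intro x
      obtain ⟨w, rfl⟩ := QuotientGroup.mk'_surjective T' x
      obtain ⟨w', hw', he⟩ := hle w.2
      obtain rfl : w' = w := Subtype.ext he
      exact hw'
    have hinj := Finite.injective_iff_surjective.2 hsurj
    have hone : ∀ k : ℕ, ∀ x : U₁ ⧸ T', x ^ p ^ k = 1 → x = 1 := by
      intro k
      induction k with
      | zero => intro x hx; rwa [pow_zero, pow_one] at hx
      | succ k ih =>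
        intro x hx
        refine ih x (hinj ?_)
        rw [powMonoidHom_apply, powMonoidHom_apply, one_pow, ← pow_mul, ← pow_succ, hx]
    obtain ⟨k, hk⟩ := (hUp.to_le hU₁U).to_quotient T' (QuotientGroup.mk' T' ⟨v, hv⟩)
    exact (QuotientGroup.eq_one_iff (⟨v, hv⟩ : U₁)).1 (hone k _ hk)
  -- the kernel of the action on `U₁ / T`
  let C : Subgroup G :=
    { carrier := {g | ∀ u ∈ U₁, ⁅g, u⁆ ∈ T}
      one_mem' := fun u _ => by rw [commutatorElement_one_left]; exact T.one_mem
      mul_mem' := fun {g h} hg hh u hu => by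
        have : ⁅g * h, u⁆ = g * ⁅h, u⁆ * g⁻¹ * ⁅g, u⁆ := by simp only [commutatorElement_def]; group
        rw [this]; exact T.mul_mem (hTn.conj_mem _ (hh u hu) g) (hg u hu)
      inv_mem' := fun {g} hg u hu => by
        have : ⁅g⁻¹, u⁆ = g⁻¹ * ⁅g, u⁆⁻¹ * g⁻¹⁻¹ := by simp only [commutatorElement_def]; group
        rw [this]; exact hTn.conj_mem _ (T.inv_mem (hg u hu)) g⁻¹ }
  have hCn : C.Normal := ⟨fun g hg x u hu => by
    have : ⁅x * g * x⁻¹, u⁆ = x * ⁅g, x⁻¹ * u * x⁻¹⁻¹⁆ * x⁻¹ := by
      simp only [commutatorElement_def]; group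
    rw [this]; exact hTn.conj_mem _ (hg _ (hU₁n.conj_mem u hu x⁻¹)) x⟩
  have hUC : ∀ x ∈ U, ∀ u ∈ U₁, ⁅x, u⁆ ∈ T := fun x hx u hu => by
    rw [← commutatorElement_inv]
    exact T.inv_mem (hU₁U' (commutator_mem_commutator hu hx))
  have hCU : C ≤ U := by
    rcases hdich C hCn with h | h
    · exact h
    exfalso
    refine hcop fun r hr => ?_
    refine (H22.pResidual_le_of_isPGroup_quotient C ?_ hr : r ∈ C)
    have e : (⊤ : Subgroup G).map (QuotientGroup.mk' C) =
        (P : Subgroup G).map (QuotientGroup.mk' C) := by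
      rw [← h, Subgroup.map_sup, QuotientGroup.map_mk'_self, bot_sup_eq]
    rw [map_top_of_surjective _ (QuotientGroup.mk'_surjective C)] at e
    exact ((P.2.map (QuotientGroup.mk' C)).of_equiv (MulEquiv.subgroupCongr e.symm)).of_equiv
      Subgroup.topEquiv
  -- conclusion
  refine hncomm ?_
  have hmem : ⁅a, l⁆ ∈ C := by
    refine commutator_mem_of_isMaxAb hp5 (P := (P : Subgroup G)) (U₁ := U₁) (T := T) hA
      (P.2.to_le hA.1) (hU₁U.trans hUP) inf_le_left hcT hpow hTc R₀
      (fun r hr t ht => mem_centralizer_iff.1 ht.2 r hr) ?_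
      (m := Nat.card (pResidual p (G ⧸ U))) ((hp.out.coprime_iff_not_dvd.2 hKp).symm) ?_ a ha l hl
    · intro r hr r' hr'
      refine hUC _ ((QuotientGroup.eq_one_iff _).1 ?_)
      change φ ⁅r, r'⁆ = 1
      rw [map_commutatorElement, commutatorElement_eq_one_iff_mul_comm]
      exact congrArg Subtype.val (hKcomm.is_comm.comm
        ⟨_, hmap (mem_map_of_mem φ hr)⟩ ⟨_, hmap (mem_map_of_mem φ hr')⟩)
    · intro r hr
      refine hUC _ ((QuotientGroup.eq_one_iff _).1 ?_)
      change φ (r ^ _) = 1
      rw [map_pow]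
      exact congrArg Subtype.val
        (pow_card_eq_one' (x := (⟨_, hmap (mem_map_of_mem φ hr)⟩ : pResidual p (G ⧸ U))))
  have h1 : φ ⁅a, l⁆ = 1 := (QuotientGroup.eq_one_iff _).2 (hCU hmem)
  rw [map_commutatorElement, commutatorElement_eq_one_iff_mul_comm] at h1
  exact h1

/-- One step of the induction. -/
theorem normalizerThompsonA_step (hp5 : 5 ≤ p) (P : Sylow p G)
    (h : HasNormalPComplement p (normalizer (thompsonSubgroupAOf (P : Subgroup G) : Set G)))
    (IH : ∀ (H : Type u) [Group H] [Finite H], Nat.card H < Nat.card G → ∀ Q : Sylow p H,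
      HasNormalPComplement p (normalizer (thompsonSubgroupAOf (Q : Subgroup H) : Set H)) →
        HasNormalPComplement p H) :
    HasNormalPComplement p G := by
  by_contra hnot
  have IHsub : ∀ H : Subgroup G, H ≠ ⊤ → ∀ S : Subgroup G, ∀ hS : S ≤ H,
      IsPGroup p S → ¬ p ∣ S.relIndex H →
      HasNormalPComplement p (normalizer (thompsonSubgroupAOf S : Set G)) →
      HasNormalPComplement p H := by
    intro H hH S hS hSp hSi hyp
    have hH' : IsPGroup p (S.subgroupOf H) := hSp.of_equiv (subgroupOfEquivOfLe hS).symm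
    refine IH H (H19.card_lt_of_ne_top H hH) (hH'.toSylow hSi) ?_
    have hinj : Set.InjOn H.subtype (S.subgroupOf H : Set H) := H.subtype_injective.injOn
    refine hasNormalPComplement_of_map_le ((le_normalizer_map _).trans ?_) hyp
    show normalizer (((thompsonSubgroupAOf (S.subgroupOf H)).map H.subtype : Subgroup G) : Set G) ≤ _
    rw [map_thompsonSubgroupAOf _ _ hinj, map_subgroupOf_eq_of_le hS]
  have hcore : ∀ N : Subgroup G, N.Normal → ¬ p ∣ Nat.card N → N = ⊥ := by
    intro N hNn hN
    by_contra hne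
    refine hnot (hasNormalPComplement_of_quotient N hN ?_)
    refine IH (G ⧸ N) (H19.card_quotient_lt N hne)
      (P.mapSurjective (QuotientGroup.mk'_surjective N)) ?_
    have hinj := injOn_mk_of_isPGroup N hN P.2
    rw [Sylow.coe_mapSurjective, ← map_thompsonSubgroupAOf _ _ hinj,
      normalizer_map_mk N hN (P.2.to_le (thompsonSubgroupAOf_le (P : Subgroup G)))]
    exact hasNormalPComplement_map _ h
  have hproper : ∀ H : Subgroup G, (P : Subgroup G) ≤ H → H ≠ ⊤ → HasNormalPComplement p H := by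
    intro H hPH hH
    refine IHsub H hH P hPH P.2 ?_ h
    exact fun hd => P.not_dvd_index (hd.trans (Subgroup.relIndex_dvd_index_of_le hPH))
  have hloc : ∀ (S H : Subgroup G), IsSylowIn p S H → S ≠ ⊥ → H ≠ ⊤ →
      (∀ W : Subgroup G, W ≤ S → W ≠ ⊥ → normalizer (S : Set G) ≤ normalizer (W : Set G) →
        HasNormalPComplement p (normalizer (W : Set G))) → HasNormalPComplement p H :=
    fun S H hS hSne hH hW => IHsub H hH S hS.1 hS.2.1 hS.2.2
      (hW _ (thompsonSubgroupAOf_le S) (thompsonSubgroupAOf_ne_bot hSne)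
        (normalizer_le_normalizer_thompsonSubgroupAOf S))
  set U := pCore p G with hU_def
  have hUn : U.Normal := H19.pCore_normal p G
  have hU1 : U ≠ ⊥ := by
    obtain ⟨U', hU'n, hU'p, hU'⟩ := exists_normal_pSubgroup P hproper hloc hnot
    exact fun e => hU' (le_bot_iff.1 (e ▸ H19.le_pCore hU'n hU'p))
  have hnotTop : normalizer (thompsonSubgroupAOf (P : Subgroup G) : Set G) ≠ ⊤ := fun e => by
    rw [e] at h
    exact hnot ((H22.hasNormalPComplement_congr Subgroup.topEquiv).1 h)
  have hneU : U ≠ (P : Subgroup G) := by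
    intro e
    refine hnotTop ?_
    rw [eq_top_iff, ← normalizer_eq_top_iff.2 hUn, e]
    exact normalizer_le_normalizer_thompsonSubgroupAOf _
  set P' : Sylow p (G ⧸ U) := P.mapSurjective (QuotientGroup.mk'_surjective U)
  have hP'ne : (P' : Subgroup (G ⧸ U)) ≠ ⊥ := by
    intro e
    refine hneU (le_antisymm (H19.pCore_le_sylow P) fun x hx => ?_)
    have h1 : QuotientGroup.mk' U x ∈ (P' : Subgroup (G ⧸ U)) := mem_map_of_mem _ hx
    rw [e, mem_bot] at h1
    exact (QuotientGroup.eq_one_iff x).1 h1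
  have hquot : HasNormalPComplement p (G ⧸ U) :=
    IH (G ⧸ U) (H19.card_quotient_lt U hU1) P'
      (hasNormalPComplement_normalizer_quotient P U (H19.pCore_quotient_pCore p) hproper
        (thompsonSubgroupAOf_ne_bot hP'ne) (thompsonSubgroupAOf_le _)
        (le_normalizer_thompsonSubgroupAOf _))
  have hmin := minimalNPC_of P hcore U hU_def hneU hproper hquot
  refine hnotTop (eq_top_iff.2 fun g _ => mem_normalizer_thompsonSubgroupAOf fun A hA => ?_)
  exact ((rconj_mono g (isMaxAb_le_of_minimalNPC hp5 P U hmin hA)).trans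
    (rconj_eq_self ((normalizer_eq_top_iff.2 hUn).symm ▸ mem_top g)).le).trans hmin.le_sylow

/-- **Normal `p`-complement criterion by `N(J(P))`**, `p ≥ 5`. -/
theorem normalizerThompsonA_normal_p_complement {p : ℕ} [Fact p.Prime] (hp5 : 5 ≤ p) (n : ℕ) :
    ∀ (G : Type u) [Group G] [Finite G], Nat.card G = n → ∀ P : Sylow p G,
      HasNormalPComplement p (normalizer (thompsonSubgroupAOf (P : Subgroup G) : Set G)) →
      HasNormalPComplement p G := by
  induction n using Nat.strong_induction_on with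
  | _ n ih =>
    intro G _ _ hn P h
    exact normalizerThompsonA_step hp5 P h fun H _ _ hlt Q hQ => ih _ (hn ▸ hlt) H rfl Q hQ

end Cfsg.Agent.H35.AbOrbit
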